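import Mathlib
import Cfsg.Agent.H448.FprCent.Cent

/-!
# The order of the fixed points of a frame Frobenius automorphism on the torus (helper448, S3509 F5)

`card_fix_le` : `|T^τ| ≤ (p ^ e + 1) ^ l` for every frame automorphism `τ` with `IsFrob p e τ`.
-/

set_option autoImplicit false
set_option linter.unusedSectionVars false

namespace Cfsg.Agent.H448.TorB

open CoxeterSystem Subgroup Cfsg Cfsg.Lie Cfsg.Lie.ChevalleyDatum
open Cfsg.Agent.ChevalleyStructure Cfsg.Agent.ChevalleyStructure.Elts Cfsg.Agent.ChevalleyStructure.CoxeterGeom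
  Cfsg.Agent.ChevalleyStructure.CoxeterGeomTypes Cfsg.Agent.ChevalleyStructure.NPerm
open Cfsg.Agent.Tits.Roots Cfsg.Agent.Tits.Core Cfsg.Agent.Nodes.Reps Cfsg.Agent.Nodes.BNOf
  Cfsg.Agent.Nodes.RGDChev Cfsg.Agent.Nodes.Bruhat
open Cfsg.Agent.KFacts.RgdField Cfsg.Agent.KFacts.RgdChevCoord Cfsg.Agent.BpExc Cfsg.Agent.BpExc.TorCent
  Cfsg.Agent.BpExc.TorChev Cfsg.Agent.BpExc.Tow Cfsg.Agent.BpExc.TowChev Cfsg.Agent.BpExc.Fr Cfsg.Agent.BpExc.Pair
  Cfsg.Agent.BpExc.LangFr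
open Cfsg.Agent.H129.TorusChar
open Cfsg.Agent.H378.TorDual Cfsg.Agent.H378.TorChar Cfsg.Agent.H378.TorFin Cfsg.Agent.H378.LatRoot
  Cfsg.Agent.H378.LatCyc Cfsg.Agent.H378.Regular Cfsg.Agent.H378.RegTw Cfsg.Agent.H448.FprCent

universe u v

variable {D : ChevalleyDatum} {l : ℕ} {M : CoxeterMatrix (Fin l)} (hp : IsType D l M) {k : Type u} [Field k]
  {W : Type*} [Group W] (cs : CoxeterSystem M W) {p e : ℕ} [Fact p.Prime] [CharP k p]
  {τ : MulAut ↥(D.group k)} {g : (Fin l → ℤ) ≃+ (Fin l → ℤ)}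

/-- the characters of the fixed points -/
theorem tchar_mem [IsAlgClosed k] (hτ : IsFrob p e τ) (F : Fr cs hp.isCartan (TT D k) (XX D l k) τ g) {s : ↥(D.group k)}
    (hs : s ∈ TT D k) (hfix : τ s = s) :
    tchar hp ⟨s, hs⟩ ∈ KerOf k (endo g - ((p ^ e : ℕ) : ℤ) • (1 : Module.End ℤ (Fin l → ℤ))) := by
  refine mem_kerOf_iff.2 fun x => Units.ext ?_
  rw [Units.val_pow_eq_pow_val, tchar_eq_cX, tchar_eq_cX]
  have h1 := cX_sigma hp cs hτ F hs x
  rwa [hfix] at h1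

/-- the determinant is prime to `p` -/
theorem det_ne (he : 0 < e) (g : (Fin l → ℤ) ≃+ (Fin l → ℤ)) (k : Type u) [Field k] [CharP k p] :
    ((LinearMap.det (endo g - ((p ^ e : ℕ) : ℤ) • (1 : Module.End ℤ (Fin l → ℤ))) : ℤ) : k) ≠ 0 := by
  refine det_ne_zero (endo_mul_symm g) ?_
  rw [Int.cast_natCast, Nat.cast_pow, CharP.cast_eq_zero, zero_pow he.ne']

/-- **The fixed points of a frame automorphism on the torus**: any set of fixed points. -/
theorem card_fix_le [IsAlgClosed k] [Finite W] (he : 0 < e) (hτ : IsFrob p e τ)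
    (F : Fr cs hp.isCartan (TT D k) (XX D l k) τ g) {A : Set ↥(D.group k)} (hA : ∀ t ∈ A, t ∈ TT D k ∧ τ t = t) :
    Finite A ∧ Nat.card A ≤ (LinearMap.det (endo g - ((p ^ e : ℕ) : ℤ) • (1 : Module.End ℤ (Fin l → ℤ)))).natAbs ∧
      Nat.card A ≤ (p ^ e + 1) ^ l := by
  have hdet := det_ne (p := p) he g k
  have hfin : Finite ↥(KerOf k (endo g - ((p ^ e : ℕ) : ℤ) • (1 : Module.End ℤ (Fin l → ℤ)))) := by
    refine Nat.finite_of_card_ne_zero ?_
    rw [card_kerOf k hdet, Ne, Int.natAbs_eq_zero]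
    intro h
    rw [h, Int.cast_zero] at hdet
    exact hdet rfl
  let φ : A → ↥(KerOf k (endo g - ((p ^ e : ℕ) : ℤ) • (1 : Module.End ℤ (Fin l → ℤ)))) := fun t =>
    ⟨tchar hp ⟨t.1, (hA t.1 t.2).1⟩, tchar_mem hp cs hτ F (hA t.1 t.2).1 (hA t.1 t.2).2⟩
  have hφ : Function.Injective φ := by
    intro a b hab
    have h1 := tchar_injective hp (congrArg Subtype.val hab)
    exact Subtype.ext (congrArg (fun t : ↥(TT D k) => (t : ↥(D.group k))) h1)
  obtain ⟨N, hN, hgN⟩ := exists_pow_one (cs := cs) (h := hp.isCartan) F.root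
  have h1 : Nat.card A ≤ (LinearMap.det (endo g - ((p ^ e : ℕ) : ℤ) • (1 : Module.End ℤ (Fin l → ℤ)))).natAbs :=
    (Nat.card_le_card_of_injective φ hφ).trans (card_kerOf k hdet).le
  exact ⟨Finite.of_injective φ hφ, h1, h1.trans (natAbs_det_le hN.ne' hgN (p ^ e))⟩

/-- **Subgroups**: `|TT ⊓ fixedSubgroup τ| ≤ (p ^ e + 1) ^ l`. -/
theorem card_fixT_le [IsAlgClosed k] [Finite W] (he : 0 < e) (hτ : IsFrob p e τ)
    (F : Fr cs hp.isCartan (TT D k) (XX D l k) τ g) {H : Subgroup ↥(D.group k)} (hH : H ≤ TT D k)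
    (hf : ∀ t ∈ H, τ t = t) : Finite ↥H ∧ Nat.card ↥H ≤ (p ^ e + 1) ^ l := by
  obtain ⟨h1, -, h2⟩ := card_fix_le hp cs he hτ F (A := (H : Set ↥(D.group k))) fun t ht => ⟨hH ht, hf t ht⟩
  exact ⟨h1, h2⟩

end Cfsg.Agent.H448.TorB
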