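import Mathlib

/-!
# `det (P_σ - q)` for a permutation `σ` (helper448)

`Dp q σ = det (P_σ - q)`; `natAbs_Dp` : `|Dp q σ| = ∏ (q ^ a - 1)` over the cycles of `σ` (fixed points included).
-/

set_option autoImplicit false

namespace Cfsg.Agent.H448.TorB

open Equiv

variable {ι κ : Type*} [Fintype ι] [DecidableEq ι] [Fintype κ] [DecidableEq κ]

/-- the matrix of `e_j ↦ e_{σ j}` -/
def Pm (σ : Perm ι) : Matrix ι ι ℤ := Matrix.of fun i j => if i = σ j then 1 else 0

theorem Pm_apply (σ : Perm ι) (i j : ι) : Pm σ i j = if i = σ j then 1 else 0 := rfl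

/-- `det (P_σ - q)` -/
def Dp (q : ℤ) (σ : Perm ι) : ℤ := (Pm σ - q • (1 : Matrix ι ι ℤ)).det

theorem Pm_one : Pm (1 : Perm ι) = 1 := by
  ext i j
  rw [Pm_apply, Matrix.one_apply]
  rfl

theorem Dp_one (q : ℤ) : Dp q (1 : Perm ι) = (1 - q) ^ Fintype.card ι := by
  rw [Dp, Pm_one]
  have h : (1 : Matrix ι ι ℤ) - q • (1 : Matrix ι ι ℤ) = (1 - q) • (1 : Matrix ι ι ℤ) := by
    rw [sub_smul, one_smul]
  rw [h, Matrix.det_smul, Matrix.det_one, mul_one]

theorem Pm_mul (σ τ : Perm ι) : Pm σ * Pm τ = Pm (σ * τ) := by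
  ext i j
  rw [Matrix.mul_apply, Pm_apply, Finset.sum_eq_single (τ j)]
  · rw [Pm_apply, Pm_apply, if_pos rfl, mul_one]
    rfl
  · intro x _ hx
    rw [Pm_apply τ x j, if_neg hx, mul_zero]
  · intro h
    exact absurd (Finset.mem_univ _) h

theorem Pm_disjoint {σ τ : Perm ι} (h : σ.Disjoint τ) : Pm σ * Pm τ = Pm σ + Pm τ - 1 := by
  rw [Pm_mul]
  ext i j
  rw [Matrix.sub_apply, Matrix.add_apply, Pm_apply, Pm_apply, Pm_apply, Matrix.one_apply, Perm.mul_apply]
  rcases h j with h1 | h1
  · have h2 : σ (τ j) = τ j := by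
      rcases h (τ j) with h3 | h3
      · exact h3
      · rw [τ.injective h3, h1]
    rw [h2, h1]
    ring
  · rw [h1]
    ring

/-- **Disjoint products.** -/
theorem Dp_disjoint (q : ℤ) {σ τ : Perm ι} (h : σ.Disjoint τ) :
    Dp q σ * Dp q τ = (1 - q) ^ Fintype.card ι * Dp q (σ * τ) := by
  rw [Dp, Dp, Dp, ← Matrix.det_mul, ← Matrix.det_smul]
  congr 1
  rw [← Pm_mul]
  have h1 := Pm_disjoint h
  have e : (Pm σ - q • (1 : Matrix ι ι ℤ)) * (Pm τ - q • (1 : Matrix ι ι ℤ)) =
      Pm σ * Pm τ - q • (Pm σ + Pm τ) + (q * q) • (1 : Matrix ι ι ℤ) := by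
    rw [sub_mul, mul_sub, mul_sub, mul_smul_comm, mul_one, smul_mul_assoc, one_mul, smul_mul_smul_comm, mul_one,
      smul_add]
    abel
  have e2 : Pm σ + Pm τ = Pm σ * Pm τ + 1 := by rw [h1]; abel
  rw [e, e2, smul_add, smul_sub, sub_smul, sub_smul, one_smul, one_smul, ← mul_smul]
  abel

/-- a permutation between `1` and a cycle -/
theorem eq_of_between {σ τ : Perm ι} (hσ : σ.IsCycle) (h : ∀ i, τ i = i ∨ τ i = σ i) (hτ : τ ≠ 1) : τ = σ := by
  obtain ⟨x, hx⟩ : ∃ x, τ x ≠ x := by
    by_contra hcon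
    push Not at hcon
    exact hτ (Equiv.ext hcon)
  have hσx : σ x ≠ x := by
    rcases h x with h1 | h1
    · exact absurd h1 hx
    · rw [← h1]; exact hx
  have key : ∀ n : ℕ, τ ((σ ^ n) x) = σ ((σ ^ n) x) ∧ σ ((σ ^ n) x) ≠ (σ ^ n) x := by
    intro n
    have hmv : σ ((σ ^ n) x) ≠ (σ ^ n) x := by
      intro h1
      apply hσx
      have h2 : (σ ^ n) (σ x) = (σ ^ n) x := by
        rw [← Perm.mul_apply, ← pow_succ, pow_succ', Perm.mul_apply, h1]
      exact (σ ^ n).injective h2
    refine ⟨?_, hmv⟩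
    induction n with
    | zero =>
      rcases h x with h1 | h1
      · exact absurd h1 hx
      · exact h1
    | succ n ih =>
      have hmv' : σ ((σ ^ n) x) ≠ (σ ^ n) x := by
        intro h1
        apply hσx
        have h2 : (σ ^ n) (σ x) = (σ ^ n) x := by
          rw [← Perm.mul_apply, ← pow_succ, pow_succ', Perm.mul_apply, h1]
        exact (σ ^ n).injective h2
      have ih' := ih hmv'
      rcases h ((σ ^ (n + 1)) x) with h1 | h1
      · exfalso
        rw [pow_succ', Perm.mul_apply, ← ih'] at h1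
        have h2 := τ.injective h1
        rw [ih'] at h2
        exact hmv' h2
      · exact h1
  refine Equiv.ext fun z => ?_
  by_cases hz : σ z = z
  · rcases h z with h1 | h1
    · rw [h1, hz]
    · exact h1
  · obtain ⟨n, hn⟩ := hσ.exists_pow_eq hσx hz
    rw [← hn]
    exact (key n).1

/-- **Cycles.** -/
theorem Dp_cycle (q : ℤ) {σ : Perm ι} (hσ : σ.IsCycle) :
    Dp q σ = (-1) ^ Fintype.card ι * ((q ^ σ.support.card - 1) * (q - 1) ^ (Fintype.card ι - σ.support.card)) := by
  rw [Dp, Matrix.det_apply]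
  set M := Pm σ - q • (1 : Matrix ι ι ℤ) with hM
  have hMa : ∀ i j, M i j = (if i = σ j then 1 else 0) - q * (if i = j then 1 else 0) := by
    intro i j
    rw [hM, Matrix.sub_apply, Matrix.smul_apply, Pm_apply, Matrix.one_apply, smul_eq_mul]
  have hsum : ∑ τ : Perm ι, Perm.sign τ • ∏ i, M (τ i) i =
      ∑ τ ∈ ({1, σ} : Finset (Perm ι)), Perm.sign τ • ∏ i, M (τ i) i := by
    symm
    refine Finset.sum_subset (Finset.subset_univ _) fun τ _ hτ => ?_
    rw [Finset.mem_insert, Finset.mem_singleton, not_or] at hτ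
    have : ∃ i, M (τ i) i = 0 := by
      by_contra hcon
      push Not at hcon
      refine hτ.2 (eq_of_between hσ (fun i => ?_) hτ.1)
      by_contra h1
      push Not at h1
      apply hcon i
      rw [hMa, if_neg h1.2, if_neg h1.1]
      ring
    obtain ⟨i, hi⟩ := this
    have h0 : ∏ j, M (τ j) j = 0 := Finset.prod_eq_zero (Finset.mem_univ i) hi
    rw [h0, smul_zero]
  rw [hsum, Finset.sum_pair (Ne.symm hσ.ne_one)]
  have hcard : Fintype.card ι = σ.support.card + (Fintype.card ι - σ.support.card) := by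
    have := Finset.card_le_univ σ.support
    omega
  have hcompl : (σ.support)ᶜ.card = Fintype.card ι - σ.support.card := Finset.card_compl _
  have h1 : ∏ i, M ((1 : Perm ι) i) i = (-q) ^ σ.support.card * (1 - q) ^ (Fintype.card ι - σ.support.card) := by
    rw [← Finset.prod_mul_prod_compl σ.support, ← hcompl]
    congr 1
    · rw [Finset.prod_congr rfl (g := fun _ => -q), Finset.prod_const]
      intro i hi
      rw [Perm.mem_support] at hi
      rw [hMa, Perm.one_apply, if_neg (fun h => hi h.symm), if_pos rfl]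
      ring
    · rw [Finset.prod_congr rfl (g := fun _ => 1 - q), Finset.prod_const]
      intro i hi
      rw [Finset.mem_compl, Perm.mem_support, not_not] at hi
      rw [hMa, Perm.one_apply, if_pos hi.symm, if_pos rfl]
      ring
  have h2 : ∏ i, M (σ i) i = (1 - q) ^ (Fintype.card ι - σ.support.card) := by
    rw [← Finset.prod_mul_prod_compl σ.support, ← hcompl]
    have h3 : ∏ i ∈ σ.support, M (σ i) i = 1 := by
      refine Finset.prod_eq_one fun i hi => ?_
      rw [Perm.mem_support] at hi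
      rw [hMa, if_pos rfl, if_neg hi]
      ring
    rw [h3, one_mul, Finset.prod_congr rfl (g := fun _ => 1 - q), Finset.prod_const]
    intro i hi
    rw [Finset.mem_compl, Perm.mem_support, not_not] at hi
    rw [hMa, hi, if_pos rfl]
    ring
  rw [h1, h2, Perm.sign_one, one_smul, hσ.sign]
  have h3 : ((-(-1) ^ σ.support.card : ℤˣ) • ((1 - q) ^ (Fintype.card ι - σ.support.card) : ℤ)) =
      -((-1) ^ σ.support.card * (1 - q) ^ (Fintype.card ι - σ.support.card)) := by
    rw [Units.smul_def, smul_eq_mul]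
    push_cast
    ring
  rw [h3]
  conv_rhs => rw [hcard, pow_add]
  have h4 : (1 - q) ^ (Fintype.card ι - σ.support.card) =
      (-1) ^ (Fintype.card ι - σ.support.card) * (q - 1) ^ (Fintype.card ι - σ.support.card) := by
    rw [← mul_pow]; congr 1; ring
  have h5 : (-q) ^ σ.support.card = (-1) ^ σ.support.card * q ^ σ.support.card := by
    rw [← mul_pow]; congr 1; ring
  rw [h4, h5, Nat.add_sub_cancel_left]
  ring

/-- the product over the cycles (fixed points included) -/
def cyc (q : ℕ) (σ : Perm ι) : ℕ :=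
  (σ.cycleType.map fun a => q ^ a - 1).prod * (q - 1) ^ (Fintype.card ι - σ.support.card)

theorem cyc_one (q : ℕ) : cyc q (1 : Perm ι) = (q - 1) ^ Fintype.card ι := by
  rw [cyc, Perm.cycleType_one, Multiset.map_zero, Multiset.prod_zero, one_mul, Perm.support_one, Finset.card_empty,
    Nat.sub_zero]

/-- **The value.** -/
theorem natAbs_Dp {q : ℕ} (hq : 2 ≤ q) (σ : Perm ι) : (Dp q σ).natAbs = cyc q σ := by
  have h1q : ((1 : ℤ) - q).natAbs = q - 1 := by omega
  induction σ using Perm.cycle_induction_on with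
  | base_one => rw [Dp_one, Int.natAbs_pow, h1q, cyc_one]
  | base_cycles σ hσ =>
    rw [Dp_cycle _ hσ, Int.natAbs_mul, Int.natAbs_pow, Int.natAbs_mul, Int.natAbs_pow, cyc, hσ.cycleType]
    have e1 : ((-1 : ℤ)).natAbs = 1 := rfl
    have e2 : (((q : ℤ)) ^ σ.support.card - 1).natAbs = q ^ σ.support.card - 1 := by
      have h : 1 ≤ q ^ σ.support.card := Nat.one_le_pow _ _ (by omega)
      have h2 : (((q ^ σ.support.card : ℕ) : ℤ) - 1).natAbs = q ^ σ.support.card - 1 := by omega
      rw [← h2]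
      push_cast
      rfl
    have e3 : ((q : ℤ) - 1).natAbs = q - 1 := by omega
    rw [e1, one_pow, one_mul, e2, e3]
    simp
  | induction_disjoint σ τ hd hσ ih1 ih2 =>
    have h1 := congrArg Int.natAbs (Dp_disjoint (q : ℤ) hd)
    rw [Int.natAbs_mul, Int.natAbs_mul, ih1, ih2, Int.natAbs_pow, h1q] at h1
    have hpos : 0 < (q - 1) ^ Fintype.card ι := pow_pos (by omega) _
    refine (Nat.eq_of_mul_eq_mul_left hpos ?_)
    rw [← h1, cyc, cyc, cyc, hd.cycleType_mul, Multiset.map_add, Multiset.prod_add, hd.card_support_mul]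
    have hc : σ.support.card + τ.support.card ≤ Fintype.card ι := by
      rw [← hd.card_support_mul]; exact Finset.card_le_univ _
    have e : (q - 1) ^ (Fintype.card ι - σ.support.card) * (q - 1) ^ (Fintype.card ι - τ.support.card) =
        (q - 1) ^ Fintype.card ι * (q - 1) ^ (Fintype.card ι - (σ.support.card + τ.support.card)) := by
      rw [← pow_add, ← pow_add]; congr 1; omega
    calc _ = (σ.cycleType.map fun a => q ^ a - 1).prod * (τ.cycleType.map fun a => q ^ a - 1).prod *
        ((q - 1) ^ (Fintype.card ι - σ.support.card) * (q - 1) ^ (Fintype.card ι - τ.support.card)) := by ring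
      _ = _ := by rw [e]; ring

/-- disjoint unions -/
theorem Dp_sum (q : ℤ) (σ : Perm ι) (τ : Perm κ) : Dp q (Equiv.sumCongr σ τ) = Dp q σ * Dp q τ := by
  rw [Dp, Dp, Dp, ← Matrix.det_fromBlocks_zero₂₁ (Pm σ - q • (1 : Matrix ι ι ℤ)) 0 (Pm τ - q • (1 : Matrix κ κ ℤ))]
  congr 1
  ext i j
  rw [Matrix.sub_apply, Matrix.smul_apply, Pm_apply, Matrix.one_apply, smul_eq_mul]
  rcases i with i | i <;> rcases j with j | j
  · rw [Matrix.fromBlocks_apply₁₁, Matrix.sub_apply, Matrix.smul_apply, Pm_apply, Matrix.one_apply, smul_eq_mul]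
    simp only [Equiv.sumCongr_apply, Sum.map_inl, Sum.inl.injEq]
  · rw [Matrix.fromBlocks_apply₁₂, Matrix.zero_apply]
    simp
  · rw [Matrix.fromBlocks_apply₂₁, Matrix.zero_apply]
    simp
  · rw [Matrix.fromBlocks_apply₂₂, Matrix.sub_apply, Matrix.smul_apply, Pm_apply, Matrix.one_apply, smul_eq_mul]
    simp only [Equiv.sumCongr_apply, Sum.map_inr, Sum.inr.injEq]

/-- relabelling -/
theorem Dp_reindex (q : ℤ) (e : ι ≃ κ) (σ : Perm ι) : Dp q ((e.symm.trans σ).trans e) = Dp q σ := by
  rw [Dp, Dp, ← Matrix.det_reindex_self e]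
  congr 1
  ext i j
  rw [Matrix.sub_apply, Matrix.smul_apply, Pm_apply, Matrix.one_apply, Matrix.reindex_apply, Matrix.submatrix_apply,
    Matrix.sub_apply, Matrix.smul_apply, Pm_apply, Matrix.one_apply]
  have h1 : (i = ((e.symm.trans σ).trans e) j) ↔ (e.symm i = σ (e.symm j)) := by
    show i = e (σ (e.symm j)) ↔ _
    rw [e.symm_apply_eq]
  have h2 : (i = j) ↔ (e.symm i = e.symm j) := e.symm.injective.eq_iff.symm
  simp only [h1, h2]

end Cfsg.Agent.H448.TorB
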