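import Mathlib
import Cfsg.Agent.H448.TorB.Perm
import Cfsg.Agent.H448.FprCent.Det

/-!
# `|det (f - q)|` for `f` of finite order permuting an independent family (helper448, S3509 F5)

`natAbs_det_le_cyc` : `|det (f - q)| ≤ ∏_{cycles} (q ^ a - 1) * (q + 1) ^ (l - #ι)`.
-/

set_option autoImplicit false

namespace Cfsg.Agent.H448.TorB

open Equiv Module Cfsg.Agent.H448.FprCent

variable {l : ℕ} {ι : Type*} [Fintype ι] [DecidableEq ι]

/-- the rational extension -/
noncomputable def fQ (f : Module.End ℤ (Fin l → ℤ)) : Module.End ℚ (Fin l → ℚ) :=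
  Matrix.toLin' ((LinearMap.toMatrix' f).map (Int.castRingHom ℚ))

/-- the inclusion -/
def cV : (Fin l → ℤ) →+ (Fin l → ℚ) where
  toFun x i := (x i : ℚ)
  map_zero' := by funext i; simp
  map_add' x y := by funext i; simp

theorem cV_apply (x : Fin l → ℤ) (i : Fin l) : cV x i = (x i : ℚ) := rfl

theorem cV_injective : Function.Injective (cV (l := l)) := fun x y h => funext fun i => by
  have := congrFun h i
  rw [cV_apply, cV_apply] at this
  exact_mod_cast this

theorem fQ_cV (f : Module.End ℤ (Fin l → ℤ)) (x : Fin l → ℤ) : fQ f (cV x) = cV (f x) := by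
  funext i
  rw [fQ, Matrix.toLin'_apply, cV_apply]
  have h : f x = (LinearMap.toMatrix' f).mulVec x := by
    rw [← Matrix.toLin'_apply, Matrix.toLin'_toMatrix']
  rw [h, Matrix.mulVec, Matrix.mulVec, dotProduct, dotProduct, Int.cast_sum]
  refine Finset.sum_congr rfl fun j _ => ?_
  rw [Matrix.map_apply, cV_apply, Int.cast_mul]
  rfl

theorem fQ_mul (f g : Module.End ℤ (Fin l → ℤ)) : fQ (f * g) = fQ f * fQ g := by
  rw [fQ, fQ, fQ, LinearMap.toMatrix'_mul, Matrix.map_mul, Matrix.toLin'_mul]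
  rfl

theorem fQ_one : fQ (1 : Module.End ℤ (Fin l → ℤ)) = 1 := by
  rw [fQ, Module.End.one_eq_id, LinearMap.toMatrix'_id, Matrix.map_one _ (map_zero _) (map_one _), Matrix.toLin'_one]
  rfl

theorem fQ_pow (f : Module.End ℤ (Fin l → ℤ)) (n : ℕ) : fQ (f ^ n) = fQ f ^ n := by
  induction n with
  | zero => rw [pow_zero, pow_zero, fQ_one]
  | succ n ih => rw [pow_succ, fQ_mul, ih, pow_succ]

theorem det_fQ (f : Module.End ℤ (Fin l → ℤ)) (q : ℤ) :
    ((LinearMap.det (f - q • (1 : Module.End ℤ (Fin l → ℤ))) : ℤ) : ℚ) =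
      LinearMap.det (fQ f - (q : ℚ) • (1 : Module.End ℚ (Fin l → ℚ))) := by
  have e1 : LinearMap.toMatrix' (f - q • (1 : Module.End ℤ (Fin l → ℤ))) =
      LinearMap.toMatrix' f - q • (1 : Matrix (Fin l) (Fin l) ℤ) := by
    rw [map_sub, map_smul, Module.End.one_eq_id, LinearMap.toMatrix'_id]
  have e2 : LinearMap.toMatrix' (fQ f - (q : ℚ) • (1 : Module.End ℚ (Fin l → ℚ))) =
      (LinearMap.toMatrix' f).map (Int.castRingHom ℚ) - (q : ℚ) • (1 : Matrix (Fin l) (Fin l) ℚ) := by
    rw [map_sub, map_smul, Module.End.one_eq_id, LinearMap.toMatrix'_id, fQ, LinearMap.toMatrix'_toLin']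
  rw [← LinearMap.det_toMatrix', ← LinearMap.det_toMatrix', e1, e2]
  refine (RingHom.map_det (Int.castRingHom ℚ) _).trans ?_
  congr 1
  ext i j
  rw [RingHom.mapMatrix_apply, Matrix.map_apply, Matrix.sub_apply, Matrix.smul_apply, Matrix.sub_apply,
    Matrix.smul_apply, Matrix.map_apply, Matrix.one_apply, Matrix.one_apply, map_sub]
  congr 1
  split_ifs <;> simp

/-- an endomorphism of finite order of a rational space -/
theorem abs_det_le {V : Type*} [AddCommGroup V] [Module ℚ V] [FiniteDimensional ℚ V] {h : Module.End ℚ V} {N : ℕ}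
    (hN : N ≠ 0) (hh : h ^ N = 1) (q : ℕ) :
    |LinearMap.det (h - (q : ℚ) • (1 : Module.End ℚ V))| ≤ ((q : ℚ) + 1) ^ finrank ℚ V := by
  set b := Module.finBasis ℚ V
  set B : Matrix (Fin (finrank ℚ V)) (Fin (finrank ℚ V)) ℚ := LinearMap.toMatrix b b h with hB
  have hB1 : B ^ N = 1 := by
    have h1 := congrArg (LinearMap.toMatrixAlgEquiv b) hh
    rw [map_pow, map_one] at h1
    exact h1
  set A := B.map (algebraMap ℚ ℂ) with hA
  have hA1 : A ^ N = 1 := by
    have h1 := congrArg (RingHom.mapMatrix (algebraMap ℚ ℂ)) hB1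
    rw [map_pow, map_one] at h1
    exact h1
  have h1 : LinearMap.det (h - (q : ℚ) • (1 : Module.End ℚ V)) = (B - Matrix.scalar _ (q : ℚ)).det := by
    rw [← LinearMap.det_toMatrix b, map_sub, map_smul, Module.End.one_eq_id, LinearMap.toMatrix_id,
      Matrix.scalar_apply, ← Matrix.smul_one_eq_diagonal]
  have h2 : (((B - Matrix.scalar _ (q : ℚ)).det : ℚ) : ℂ) = (A - Matrix.scalar _ (q : ℂ)).det := by
    have h3 := RingHom.map_det (algebraMap ℚ ℂ) (B - Matrix.scalar _ (q : ℚ))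
    rw [map_sub] at h3
    have h4 : (RingHom.mapMatrix (algebraMap ℚ ℂ)) (Matrix.scalar (Fin (finrank ℚ V)) (q : ℚ)) =
        Matrix.scalar _ (q : ℂ) := by
      ext i j
      rw [RingHom.mapMatrix_apply, Matrix.map_apply, Matrix.scalar_apply, Matrix.scalar_apply, Matrix.diagonal_apply,
        Matrix.diagonal_apply]
      split_ifs <;> simp
    rw [h4] at h3
    exact h3
  have h3 := norm_det_le hN hA1 q
  rw [← h2, ← h1] at h3
  have h4 : ‖((LinearMap.det (h - (q : ℚ) • (1 : Module.End ℚ V)) : ℚ) : ℂ)‖ =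
      ((|LinearMap.det (h - (q : ℚ) • (1 : Module.End ℚ V))| : ℚ) : ℝ) := by
    rw [← Complex.ofReal_ratCast, Complex.norm_real, Real.norm_eq_abs, Rat.cast_abs]
  rw [h4] at h3
  exact_mod_cast h3

theorem linInd_cV {b : ι → Fin l → ℤ} (hb : LinearIndependent ℤ b) :
    LinearIndependent ℚ (fun i => cV (b i)) := by
  have h1 : LinearIndependent ℤ (fun i => cV (b i)) := by
    have := hb.map' (cV (l := l)).toIntLinearMap (LinearMap.ker_eq_bot.2 cV_injective)
    exact this
  exact (LinearIndependent.iff_fractionRing ℤ ℚ).1 h1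

/-- **The bound.** -/
theorem natAbs_det_le_Dp {f : Module.End ℤ (Fin l → ℤ)} {N : ℕ} (hN : N ≠ 0) (hf : f ^ N = 1) {b : ι → Fin l → ℤ}
    (hb : LinearIndependent ℤ b) {σ : Perm ι} (hσ : ∀ i, f (b i) = b (σ i)) (q : ℕ) :
    (LinearMap.det (f - (q : ℤ) • (1 : Module.End ℤ (Fin l → ℤ)))).natAbs ≤
      (Dp q σ).natAbs * (q + 1) ^ (l - Fintype.card ι) := by
  have hli := linInd_cV hb
  set U : Submodule ℚ (Fin l → ℚ) := Submodule.span ℚ (Set.range fun i => cV (b i)) with hU
  set F := fQ f with hF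
  have hFb : ∀ i, F (cV (b i)) = cV (b (σ i)) := fun i => by rw [hF, fQ_cV, hσ]
  have hFU : U ≤ U.comap F := by
    rw [hU, Submodule.span_le]
    rintro _ ⟨i, rfl⟩
    show F (cV (b i)) ∈ U
    rw [hFb]
    exact Submodule.subset_span ⟨σ i, rfl⟩
  set E := F - (q : ℚ) • (1 : Module.End ℚ (Fin l → ℚ)) with hE
  have hEU : U ≤ U.comap E := fun x hx => by
    show F x - (q : ℚ) • x ∈ U
    exact sub_mem (hFU hx) (U.smul_mem _ hx)
  have hdet := LinearMap.det_eq_det_mul_det U E hEU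
  -- the restriction
  set bU : Basis ι ℚ U := Basis.span hli with hbU
  have h1 : LinearMap.det (E.restrict hEU) = ((Dp q σ : ℤ) : ℚ) := by
    rw [← LinearMap.det_toMatrix bU, Dp]
    have h2 := RingHom.map_det (Int.castRingHom ℚ) (Pm σ - (q : ℤ) • (1 : Matrix ι ι ℤ))
    refine Eq.trans ?_ h2.symm
    congr 1
    ext i j
    have h3 : (E.restrict hEU) (bU j) = bU (σ j) - (q : ℚ) • bU j := by
      apply Subtype.ext
      show F ((bU j : U) : Fin l → ℚ) - (q : ℚ) • ((bU j : U) : Fin l → ℚ) = _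
      rw [Submodule.coe_sub, Submodule.coe_smul, hbU, Basis.span_apply, Basis.span_apply, hFb]
    rw [LinearMap.toMatrix_apply, h3, map_sub, map_smul, Basis.repr_self, Basis.repr_self, Finsupp.sub_apply,
      Finsupp.smul_apply, RingHom.mapMatrix_apply, Matrix.map_apply, Matrix.sub_apply, Matrix.smul_apply, Pm_apply,
      Matrix.one_apply, Finsupp.single_apply, Finsupp.single_apply]
    by_cases ha : i = σ j <;> by_cases hc : i = j
    · rw [if_pos ha.symm, if_pos hc.symm, if_pos ha, if_pos hc]; simp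
    · rw [if_pos ha.symm, if_neg (fun h => hc h.symm), if_pos ha, if_neg hc]; simp
    · rw [if_neg (fun h => ha h.symm), if_pos hc.symm, if_neg ha, if_pos hc]; simp
    · rw [if_neg (fun h => ha h.symm), if_neg (fun h => hc h.symm), if_neg ha, if_neg hc]; simp
  -- the quotient
  set h := U.mapQ U F hFU with hh
  have hE2 : U.mapQ U E hEU = h - (q : ℚ) • (1 : Module.End ℚ ((Fin l → ℚ) ⧸ U)) := by
    refine Submodule.linearMap_qext _ (LinearMap.ext fun x => ?_)
    rfl
  have hpow : ∀ n : ℕ, ∀ x : Fin l → ℚ, (h ^ n) (U.mkQ x) = U.mkQ ((F ^ n) x) := by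
    intro n
    induction n with
    | zero => intro x; rfl
    | succ n ih => intro x; rw [pow_succ', Module.End.mul_apply, ih, pow_succ', Module.End.mul_apply]; rfl
  have hhN : h ^ N = 1 := by
    refine Submodule.linearMap_qext _ (LinearMap.ext fun x => ?_)
    show (h ^ N) (U.mkQ x) = U.mkQ x
    rw [hpow, hF, ← fQ_pow, hf, fQ_one]
    rfl
  have h2 := abs_det_le hN hhN q
  have hfr : finrank ℚ ((Fin l → ℚ) ⧸ U) = l - Fintype.card ι := by
    have h3 := Submodule.finrank_quotient_add_finrank U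
    have h4 : finrank ℚ U = Fintype.card ι := by rw [Module.finrank_eq_card_basis bU]
    rw [h4, Module.finrank_fin_fun] at h3
    omega
  rw [← hE2, hfr] at h2
  have h3 := det_fQ f q
  rw [← hF, Int.cast_natCast, ← hE, hdet, h1] at h3
  have h4 : ((((LinearMap.det (f - (q : ℤ) • (1 : Module.End ℤ (Fin l → ℤ)))).natAbs : ℕ)) : ℚ) ≤
      (((Dp q σ).natAbs * (q + 1) ^ (l - Fintype.card ι) : ℕ) : ℚ) := by
    rw [Nat.cast_natAbs, Int.cast_abs, h3, abs_mul, Nat.cast_mul, Nat.cast_natAbs, Int.cast_abs]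
    push_cast
    exact mul_le_mul_of_nonneg_left h2 (abs_nonneg _)
  exact_mod_cast h4

/-- **The bound with the cycles.** -/
theorem natAbs_det_le_cyc {f : Module.End ℤ (Fin l → ℤ)} {N : ℕ} (hN : N ≠ 0) (hf : f ^ N = 1) {b : ι → Fin l → ℤ}
    (hb : LinearIndependent ℤ b) {σ : Perm ι} (hσ : ∀ i, f (b i) = b (σ i)) {q : ℕ} (hq : 2 ≤ q) :
    (LinearMap.det (f - (q : ℤ) • (1 : Module.End ℤ (Fin l → ℤ)))).natAbs ≤
      cyc q σ * (q + 1) ^ (l - Fintype.card ι) := by
  rw [← natAbs_Dp hq]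
  exact natAbs_det_le_Dp hN hf hb hσ q

end Cfsg.Agent.H448.TorB
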