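import Mathlib
import Cfsg.Agent.H448.TorB.Card
import Cfsg.Agent.H448.TorB.Det

/-!
# `|T^τ| ≤ ∏_{cycles} (q ^ a - 1) * (q + 1) ^ (l - #ι)` (helper448, S3509 F5)
-/

set_option autoImplicit false
set_option linter.unusedSectionVars false

namespace Cfsg.Agent.H448.TorB

open CoxeterSystem Subgroup Cfsg Cfsg.Lie Cfsg.Lie.ChevalleyDatum
open Cfsg.Agent.ChevalleyStructure Cfsg.Agent.ChevalleyStructure.Elts Cfsg.Agent.ChevalleyStructure.CoxeterGeom
  Cfsg.Agent.ChevalleyStructure.CoxeterGeomTypes Cfsg.Agent.ChevalleyStructure.NPerm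
open Cfsg.Agent.Tits.Roots Cfsg.Agent.Tits.Core Cfsg.Agent.Nodes.Reps Cfsg.Agent.Nodes.BNOf
  Cfsg.Agent.Nodes.RGDChev Cfsg.Agent.Nodes.Bruhat
open Cfsg.Agent.KFacts.RgdField Cfsg.Agent.KFacts.RgdChevCoord Cfsg.Agent.BpExc Cfsg.Agent.BpExc.TorCent
  Cfsg.Agent.BpExc.TorChev Cfsg.Agent.BpExc.Tow Cfsg.Agent.BpExc.TowChev Cfsg.Agent.BpExc.Fr Cfsg.Agent.BpExc.Pair
  Cfsg.Agent.BpExc.LangFr
open Cfsg.Agent.H129.TorusChar
open Cfsg.Agent.H378.TorDual Cfsg.Agent.H378.TorChar Cfsg.Agent.H378.TorFin Cfsg.Agent.H378.LatRoot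
  Cfsg.Agent.H378.LatCyc Cfsg.Agent.H378.Regular Cfsg.Agent.H378.RegTw Cfsg.Agent.H448.FprCent

universe u v

variable {D : ChevalleyDatum} {l : ℕ} {M : CoxeterMatrix (Fin l)} (hp : IsType D l M) {k : Type u} [Field k]
  {W : Type*} [Group W] (cs : CoxeterSystem M W) {p e : ℕ} [Fact p.Prime] [CharP k p]
  {τ : MulAut ↥(D.group k)} {g : (Fin l → ℤ) ≃+ (Fin l → ℤ)} {ι : Type*} [Fintype ι] [DecidableEq ι]

/-- the determinant of a lattice automorphism preserving the roots -/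
theorem natAbs_det_frame [Finite W] (hg : ∀ a, IsRoot cs hp.isCartan (g a) ↔ IsRoot cs hp.isCartan a)
    {b : ι → Fin l → ℤ} (hb : LinearIndependent ℤ b) {σ : Equiv.Perm ι} (hσ : ∀ i, g (b i) = b (σ i)) {q : ℕ}
    (hq : 2 ≤ q) : (LinearMap.det (endo g - (q : ℤ) • (1 : Module.End ℤ (Fin l → ℤ)))).natAbs ≤
      cyc q σ * (q + 1) ^ (l - Fintype.card ι) := by
  obtain ⟨N, hN, hgN⟩ := exists_pow_one (cs := cs) (h := hp.isCartan) hg
  exact natAbs_det_le_cyc hN.ne' hgN hb hσ hq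

/-- **The fixed points of a frame automorphism on the torus**, with a stable independent family. -/
theorem card_fix_le_cyc [IsAlgClosed k] [Finite W] (he : 0 < e) (hτ : IsFrob p e τ)
    (F : Fr cs hp.isCartan (TT D k) (XX D l k) τ g) {b : ι → Fin l → ℤ} (hb : LinearIndependent ℤ b)
    {σ : Equiv.Perm ι} (hσ : ∀ i, g (b i) = b (σ i)) {A : Set ↥(D.group k)} (hA : ∀ t ∈ A, t ∈ TT D k ∧ τ t = t) :
    Nat.card A ≤ cyc (p ^ e) σ * (p ^ e + 1) ^ (l - Fintype.card ι) := by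
  have hq : 2 ≤ p ^ e := by
    have h1 : 2 ≤ p := (Fact.out : p.Prime).two_le
    calc 2 ≤ p := h1
      _ = p ^ 1 := (pow_one p).symm
      _ ≤ p ^ e := Nat.pow_le_pow_right (by omega) he
  exact (card_fix_le hp cs he hτ F hA).2.1.trans (natAbs_det_frame hp cs F.root hb hσ hq)

end Cfsg.Agent.H448.TorB
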